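import Cfsg.Agent.CpAutTThree.MTwelve

/-!
# A group on twelve points with at most four fixed points (helper434, task 6123)

`no_group` : no group of order `2 ^ e * 27`, `5 ≤ e`, acts on twelve points such that non-trivial elements have at
most four fixed points.  `no_index_m12` : `M12` has no subgroup of index 55 or 110.
-/

set_option autoImplicit false

open MulAction

namespace Cfsg.Agent.H434.FP

theorem card_dvd_of_free {G X : Type*} [Group G] [Finite G] [Finite X] [MulAction G X]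
    (h : ∀ g : G, g ≠ 1 → ∀ x : X, g • x ≠ x) : Nat.card G ∣ Nat.card X := by
  classical
  let _ : Fintype G := Fintype.ofFinite G
  let _ : Fintype X := Fintype.ofFinite X
  have h1 := MulAction.sum_card_fixedBy_eq_card_orbits_mul_card_group G X
  rw [Finset.sum_eq_single (1 : G)] at h1
  · rw [Nat.card_eq_fintype_card, Nat.card_eq_fintype_card]
    refine ⟨Fintype.card (Quotient (orbitRel G X)), ?_⟩
    rw [mul_comm, ← h1]
    refine Fintype.card_congr (Equiv.symm (Equiv.subtypeUnivEquiv fun x => ?_))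
    exact one_smul G x
  · intro g _ hg
    rw [Fintype.card_eq_zero_iff]
    exact ⟨fun x => h g hg x.1 x.2⟩
  · intro h; exact absurd (Finset.mem_univ _) h

section

variable {G Ω : Type*} [Group G] [Finite G] [Finite Ω] [MulAction G Ω]

/-- the action on an invariant subset -/
@[reducible] def actOn (Q : Subgroup G) (T : Set Ω) (hT : ∀ g ∈ Q, ∀ x ∈ T, g • x ∈ T) : MulAction Q T where
  smul g x := ⟨(g : G) • (x : Ω), hT g g.2 x x.2⟩
  one_smul x := Subtype.ext (one_smul G (x : Ω))
  mul_smul g g' x := Subtype.ext (mul_smul (g : G) (g' : G) (x : Ω))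

theorem card_modEq {p : ℕ} [Fact p.Prime] {Q : Subgroup G} (hQ : IsPGroup p Q) (T : Set Ω)
    (hT : ∀ g ∈ Q, ∀ x ∈ T, g • x ∈ T) : T.ncard ≡ (T ∩ fixedPoints Q Ω).ncard [MOD p] := by
  classical
  let _ := actOn Q T hT
  have h := hQ.card_modEq_card_fixedPoints T
  have e : Nat.card (fixedPoints Q T) = (T ∩ fixedPoints Q Ω).ncard := by
    rw [← Nat.card_coe_set_eq]
    refine Nat.card_congr
      { toFun := fun x => ⟨x.1.1, x.1.2, fun g => congrArg Subtype.val (x.2 g)⟩
        invFun := fun x => ⟨⟨x.1, x.2.1⟩, fun g => Subtype.ext (x.2.2 g)⟩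
        left_inv := fun _ => rfl
        right_inv := fun _ => rfl }
  rw [e, Nat.card_coe_set_eq] at h
  exact h

theorem card_dvd {Q : Subgroup G} (T : Set Ω) (hT : ∀ g ∈ Q, ∀ x ∈ T, g • x ∈ T)
    (hf : ∀ g ∈ Q, g ≠ 1 → ∀ x ∈ T, g • x ≠ x) : Nat.card Q ∣ T.ncard := by
  let _ := actOn Q T hT
  rw [← Nat.card_coe_set_eq]
  refine card_dvd_of_free fun g hg x hx => ?_
  exact hf g g.2 (fun h => hg (Subtype.ext h)) x x.2 (congrArg Subtype.val hx)

omit [Finite G] [Finite Ω] in
theorem fixedPoints_zpowers (g : G) : fixedPoints (Subgroup.zpowers g) Ω = fixedBy Ω g := by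
  ext x
  constructor
  · intro hx; exact hx ⟨g, Subgroup.mem_zpowers g⟩
  · intro hx h
    have h1 : Subgroup.zpowers g ≤ stabilizer G x := by
      rw [Subgroup.zpowers_le]
      exact hx
    exact h1 h.2

omit [Finite G] [Finite Ω] in
theorem compl_inv (Q : Subgroup G) : ∀ g ∈ Q, ∀ x ∈ (fixedPoints Q Ω)ᶜ, g • x ∈ (fixedPoints Q Ω)ᶜ := by
  intro g hg x hx h
  apply hx
  have h1 : g⁻¹ • g • x = g • x := h ⟨g⁻¹, Q.inv_mem hg⟩
  rw [inv_smul_smul] at h1
  rw [h1]
  exact h

variable (h12 : Nat.card Ω = 12) (hfix : ∀ g : G, g ≠ 1 → (fixedBy Ω g).ncard ≤ 4)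

include h12 hfix

omit [Finite G] in
theorem fix_le {Q : Subgroup G} (hne : Q ≠ ⊥) : (fixedPoints Q Ω).ncard ≤ 4 := by
  obtain ⟨g, hg, hg1⟩ := (Subgroup.ne_bot_iff_exists_ne_one.1 hne) |>.elim
    (fun g hg => (⟨g.1, g.2, fun h => hg (Subtype.ext h)⟩ : ∃ g : G, ∃ _ : g ∈ Q, g ≠ 1))
  refine (Set.ncard_le_ncard ?_ (Set.toFinite _)).trans (hfix g hg1)
  intro x hx
  exact hx ⟨g, hg⟩

/-- a `p`-group fixing a point, `p = 3` -/
theorem three {Q : Subgroup G} (hQ : IsPGroup 3 Q) {a : Ω} (ha : a ∈ fixedPoints Q Ω) (hne : Q ≠ ⊥) :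
    (fixedPoints Q Ω).ncard = 3 ∧ (∀ g ∈ Q, g ≠ 1 → fixedBy Ω g = fixedPoints Q Ω) ∧ Nat.card Q ∣ 9 := by
  have : Fact (Nat.Prime 3) := ⟨Nat.prime_three⟩
  have key : ∀ R : Subgroup G, IsPGroup 3 R → R ≠ ⊥ → a ∈ fixedPoints R Ω → (fixedPoints R Ω).ncard = 3 := by
    intro R hR hR1 haR
    have h1 := card_modEq hR (Set.univ : Set Ω) (fun _ _ _ _ => trivial)
    rw [Set.univ_inter, Set.ncard_univ, h12] at h1
    have h2 := fix_le h12 hfix hR1
    have h3 : 0 < (fixedPoints R Ω).ncard := (Set.ncard_pos (Set.toFinite _)).2 ⟨a, haR⟩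
    unfold Nat.ModEq at h1
    omega
  have h3 := key Q hQ hne ha
  have hg : ∀ g ∈ Q, g ≠ 1 → fixedBy Ω g = fixedPoints Q Ω := by
    intro g hg hg1
    have hsub : fixedPoints Q Ω ⊆ fixedBy Ω g := fun x hx => hx ⟨g, hg⟩
    have h4 := key (Subgroup.zpowers g) (hQ.to_le (by rw [Subgroup.zpowers_le]; exact hg))
      (fun h => hg1 (Subgroup.zpowers_eq_bot.1 h)) (by rw [fixedPoints_zpowers]; exact hsub ha)
    rw [fixedPoints_zpowers] at h4
    exact (Set.eq_of_subset_of_ncard_le hsub (by omega) (Set.toFinite _)).symm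
  refine ⟨h3, hg, ?_⟩
  have h5 := card_dvd (Q := Q) ((fixedPoints Q Ω)ᶜ) (compl_inv Q)
    (fun g hgQ hg1 x hx h => hx (by rw [← hg g hgQ hg1]; exact h))
  have h6 : ((fixedPoints Q Ω)ᶜ).ncard = 9 := by
    rw [Set.ncard_compl, h12, h3]
  rwa [h6] at h5

/-- a `2`-group fixing three points -/
theorem two {R : Subgroup G} (hR : IsPGroup 2 R) (h3 : 3 ≤ (fixedPoints R Ω).ncard) : Nat.card R ∣ 8 := by
  have : Fact (Nat.Prime 2) := ⟨Nat.prime_two⟩
  by_cases hne : R = ⊥
  · rw [hne, Subgroup.card_bot]; exact one_dvd _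
  have key : ∀ T : Subgroup G, IsPGroup 2 T → T ≠ ⊥ → fixedPoints R Ω ⊆ fixedPoints T Ω → (fixedPoints T Ω).ncard = 4 := by
    intro T hT hT1 hsub
    have h1 := card_modEq hT (Set.univ : Set Ω) (fun _ _ _ _ => trivial)
    rw [Set.univ_inter, Set.ncard_univ, h12] at h1
    have h2 := fix_le h12 hfix hT1
    have h4 := Set.ncard_le_ncard hsub (Set.toFinite _)
    unfold Nat.ModEq at h1
    omega
  have h4 := key R hR hne le_rfl
  have hg : ∀ g ∈ R, g ≠ 1 → fixedBy Ω g = fixedPoints R Ω := by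
    intro g hg hg1
    have hsub : fixedPoints R Ω ⊆ fixedBy Ω g := fun x hx => hx ⟨g, hg⟩
    have h5 := key (Subgroup.zpowers g) (hR.to_le (by rw [Subgroup.zpowers_le]; exact hg))
      (fun h => hg1 (Subgroup.zpowers_eq_bot.1 h)) (by rw [fixedPoints_zpowers]; exact hsub)
    rw [fixedPoints_zpowers] at h5
    exact (Set.eq_of_subset_of_ncard_le hsub (by omega) (Set.toFinite _)).symm
  have h5 := card_dvd (Q := R) ((fixedPoints R Ω)ᶜ) (compl_inv R)
    (fun g hgQ hg1 x hx h => hx (by rw [← hg g hgQ hg1]; exact h))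
  have h6 : ((fixedPoints R Ω)ᶜ).ncard = 8 := by
    rw [Set.ncard_compl, h12, h4]
  rwa [h6] at h5

/-- a group of order nine fixing a point is regular on the nine points -/
theorem regular {Q : Subgroup G} (hQ9 : Nat.card Q = 9) {a : Ω} (ha : a ∈ fixedPoints Q Ω) {x y : Ω}
    (hx : x ∉ fixedPoints Q Ω) (hy : y ∉ fixedPoints Q Ω) : ∃ g ∈ Q, g • x = y := by
  have hQ : IsPGroup 3 Q := IsPGroup.of_card (n := 2) hQ9
  have hne : Q ≠ ⊥ := by
    rintro rfl
    rw [Subgroup.card_bot] at hQ9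
    omega
  obtain ⟨h3, hg, -⟩ := three h12 hfix hQ ha hne
  have h6 : ((fixedPoints Q Ω)ᶜ).ncard = 9 := by
    rw [Set.ncard_compl, h12, h3]
  let f : Q → Ω := fun g => (g : G) • x
  have hf : Function.Injective f := by
    intro g g' h
    have h1 : ((g' : G)⁻¹ * g) • x = x := by
      rw [mul_smul]
      show (g' : G)⁻¹ • f g = x
      rw [h]
      exact inv_smul_smul _ _
    by_contra hne2
    have h2 : (g' : G)⁻¹ * g ≠ 1 := fun h => hne2 (Subtype.ext (inv_mul_eq_one.1 h).symm)
    have h4 := hg _ (Q.mul_mem (Q.inv_mem g'.2) g.2) h2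
    apply hx
    rw [← h4]
    exact h1
  have h7 : Set.range f ⊆ (fixedPoints Q Ω)ᶜ := by
    rintro _ ⟨g, rfl⟩
    exact compl_inv Q g g.2 x hx
  have h8 : (Set.range f).ncard = 9 := by
    rw [← Set.image_univ, Set.ncard_image_of_injective _ hf, Set.ncard_univ, hQ9]
  have h9 := Set.eq_of_subset_of_ncard_le h7 (by omega) (Set.toFinite _)
  have h10 : y ∈ Set.range f := by rw [h9]; exact hy
  obtain ⟨g, hg⟩ := h10
  exact ⟨g, g.2, hg⟩

omit h12 hfix in
omit [Finite Ω] in
theorem exists_le {p n : ℕ} [Fact p.Prime] (A : Subgroup G) (h : p ^ n ∣ Nat.card A) : ∃ Q ≤ A, Nat.card Q = p ^ n := by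
  obtain ⟨K, hK⟩ := Sylow.exists_subgroup_card_pow_prime p h
  refine ⟨K.map A.subtype, Subgroup.map_subtype_le K, ?_⟩
  rw [← hK]
  exact Nat.card_congr (K.equivMapOfInjective _ A.subtype_injective).toEquiv.symm

omit h12 hfix in
/-- a `2`-group on three points -/
theorem two_on_three {R : Subgroup G} (hR : IsPGroup 2 R) {T : Set Ω} (hT : ∀ g ∈ R, ∀ x ∈ T, g • x ∈ T)
    (h3 : T.ncard = 3) : ∃ R1 ≤ R, Nat.card R ∣ 2 * Nat.card R1 ∧ T ⊆ fixedPoints R1 Ω := by
  classical
  have : Fact (Nat.Prime 2) := ⟨Nat.prime_two⟩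
  let _ := actOn R T hT
  let φ := MulAction.toPermHom R T
  have h1 : Nat.card φ.range ∣ Nat.card (Equiv.Perm T) := Subgroup.card_subgroup_dvd_card _
  have h2 : Nat.card (Equiv.Perm T) = 6 := by
    rw [Nat.card_perm, Nat.card_coe_set_eq, h3]; rfl
  rw [h2] at h1
  obtain ⟨k, hk⟩ := (IsPGroup.iff_card (p := 2) (G := φ.range)).1 (hR.of_surjective φ.rangeRestrict φ.rangeRestrict_surjective)
  have h4 : Nat.card φ.range ∣ 2 := by
    rw [hk] at h1 ⊢
    have h5 : Nat.Coprime (2 ^ k) 3 := Nat.Coprime.pow_left k (by norm_num)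
    exact h5.dvd_of_dvd_mul_right (show 2 ^ k ∣ 2 * 3 from h1)
  refine ⟨φ.ker.map R.subtype, Subgroup.map_subtype_le _, ?_, ?_⟩
  · have h5 : Nat.card (φ.ker.map R.subtype) = Nat.card φ.ker :=
      Nat.card_congr (φ.ker.equivMapOfInjective _ R.subtype_injective).toEquiv.symm
    have h6 : Nat.card R = Nat.card φ.range * Nat.card φ.ker := by
      rw [Subgroup.card_eq_card_quotient_mul_card_subgroup φ.ker]
      congr 1
      exact Nat.card_congr (QuotientGroup.quotientKerEquivRange φ).toEquiv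
    rw [h5, h6]
    exact Nat.mul_dvd_mul_right h4 _
  · rintro x hx ⟨_, g, hg, rfl⟩
    have h5 : φ g = 1 := hg
    have h6 := congrArg (fun f : Equiv.Perm T => ((f ⟨x, hx⟩ : T) : Ω)) h5
    exact h6

/-- the three part of a stabiliser -/
theorem not_27 (a : Ω) : ¬ 27 ∣ Nat.card (stabilizer G a) := by
  intro h
  have : Fact (Nat.Prime 3) := ⟨Nat.prime_three⟩
  obtain ⟨Q, hQ, hc⟩ := exists_le (p := 3) (n := 3) (stabilizer G a) h
  have h1 := three h12 hfix (IsPGroup.of_card hc) (a := a) (fun g => hQ g.2) (by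
    rintro rfl
    rw [Subgroup.card_bot] at hc
    omega)
  have h2 := Nat.le_of_dvd (by norm_num) h1.2.2
  omega

omit h12 hfix in
omit [Finite G] in
theorem card_eq (a : Ω) : (orbit G a).ncard * Nat.card (stabilizer G a) = Nat.card G := by
  rw [← index_stabilizer, mul_comm]
  exact Subgroup.card_mul_index _

omit hfix in
omit [Finite G] in
theorem orbit_le (a : Ω) : 0 < (orbit G a).ncard ∧ (orbit G a).ncard ≤ 12 := by
  refine ⟨(Set.ncard_pos (Set.toFinite _)).2 ⟨a, mem_orbit_self a⟩, ?_⟩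
  rw [← h12, ← Set.ncard_univ]
  exact Set.ncard_le_ncard (Set.subset_univ _) (Set.toFinite _)

variable {e : ℕ} (he : 5 ≤ e) (hG : Nat.card G = 2 ^ e * 27)

include he hG

omit he in
theorem three_dvd (a : Ω) : 3 ∣ (orbit G a).ncard := by
  by_contra h
  apply not_27 h12 hfix a
  have h1 : Nat.Coprime 27 (orbit G a).ncard :=
    Nat.Coprime.pow_left 3 ((Nat.Prime.coprime_iff_not_dvd Nat.prime_three).2 h)
  refine h1.dvd_of_dvd_mul_left ?_
  rw [card_eq, hG]
  exact dvd_mul_left _ _

omit he in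
theorem exists_nine {a : Ω} (h9 : (orbit G a).ncard ≠ 9) : ∃ Q ≤ stabilizer G a, Nat.card Q = 9 := by
  have : Fact (Nat.Prime 3) := ⟨Nat.prime_three⟩
  apply exists_le (p := 3) (n := 2)
  have h1 := card_eq (G := G) a
  have h2 := three_dvd h12 hfix hG a
  have h3 := orbit_le h12 (G := G) a
  rw [hG] at h1
  generalize (orbit G a).ncard = k at *
  obtain ⟨j, rfl⟩ := h2
  have h4 : j * Nat.card (stabilizer G a) = 9 * 2 ^ e := by linarith
  have h5 : Nat.Coprime 9 j := by
    have h6 : ¬ 3 ∣ j := by omega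
    exact Nat.Coprime.pow_left 2 ((Nat.Prime.coprime_iff_not_dvd Nat.prime_three).2 h6)
  refine h5.dvd_of_dvd_mul_left ?_
  rw [h4]
  exact dvd_mul_right _ _

theorem orbit_ne_three (a : Ω) : (orbit G a).ncard ≠ 3 := by
  intro h
  have : Fact (Nat.Prime 2) := ⟨Nat.prime_two⟩
  obtain ⟨R, -, hR⟩ := exists_le (p := 2) (n := e) (⊤ : Subgroup G) (by
    rw [Subgroup.card_top, hG]; exact dvd_mul_right _ _)
  obtain ⟨R1, hR1, h1, h2⟩ := two_on_three (IsPGroup.of_card hR) (T := orbit G a)
    (fun g _ x hx => by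
      obtain ⟨k, rfl⟩ := hx
      exact ⟨g * k, mul_smul g k a⟩) h
  have h3 := two h12 hfix ((IsPGroup.of_card hR).to_le hR1) (by
    have := Set.ncard_le_ncard h2 (Set.toFinite _)
    omega)
  have h4 := Nat.le_of_dvd (by norm_num) h3
  have h5 := Nat.le_of_dvd (by have : 0 < Nat.card R1 := Nat.card_pos; omega) h1
  rw [hR] at h5
  have h6 : 2 ^ 5 ≤ 2 ^ e := Nat.pow_le_pow_right (by norm_num) he
  omega

theorem transitive : ∀ a b : Ω, ∃ g : G, g • a = b := by
  -- a point whose orbit does not have nine elements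
  have hne : Nonempty Ω := by
    by_contra h
    rw [not_nonempty_iff] at h
    rw [Nat.card_of_isEmpty] at h12
    omega
  obtain ⟨a, ha⟩ : ∃ a : Ω, (orbit G a).ncard ≠ 9 := by
    by_contra hcon
    push Not at hcon
    obtain ⟨a⟩ := hne
    have h1 : (orbit G a) ≠ Set.univ := by
      intro h
      have := hcon a
      rw [h, Set.ncard_univ, h12] at this
      omega
    obtain ⟨b, hb⟩ := (Set.ne_univ_iff_exists_notMem _).1 h1
    have h2 : Disjoint (orbit G a) (orbit G b) := by
      rw [Set.disjoint_left]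
      intro x hx hx'
      apply hb
      rw [← orbit_eq_iff.2 hx, orbit_eq_iff.2 hx']
      exact mem_orbit_self b
    have h3 := Set.ncard_union_eq h2 (Set.toFinite _) (Set.toFinite _)
    have h4 : (orbit G a ∪ orbit G b).ncard ≤ 12 := by
      rw [← h12, ← Set.ncard_univ]
      exact Set.ncard_le_ncard (Set.subset_univ _) (Set.toFinite _)
    rw [hcon a, hcon b] at h3
    omega
  obtain ⟨Q, hQ, hQ9⟩ := exists_nine h12 hfix hG ha
  have haQ : a ∈ fixedPoints Q Ω := fun g => hQ g.2
  have hQne : Q ≠ ⊥ := by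
    rintro rfl
    rw [Subgroup.card_bot] at hQ9
    omega
  obtain ⟨h3, -, -⟩ := three h12 hfix (IsPGroup.of_card (n := 2) hQ9) haQ hQne
  have hc : ((fixedPoints Q Ω)ᶜ).ncard = 9 := by rw [Set.ncard_compl, h12, h3]
  obtain ⟨x, hx⟩ : ((fixedPoints Q Ω)ᶜ).Nonempty := by
    rw [← Set.ncard_pos (Set.toFinite _), hc]; norm_num
  have hsub : (fixedPoints Q Ω)ᶜ ⊆ orbit G x := by
    intro y hy
    obtain ⟨g, -, hg⟩ := regular h12 hfix hQ9 haQ hx hy
    exact ⟨g, hg⟩
  have hax : a ∈ orbit G x := by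
    by_contra hax
    have h4 : orbit G a ⊆ fixedPoints Q Ω := by
      intro y hy
      by_contra h5
      apply hax
      rw [← orbit_eq_iff.2 (hsub h5), orbit_eq_iff.2 hy]
      exact mem_orbit_self a
    have h5 := Set.ncard_le_ncard h4 (Set.toFinite _)
    have h6 := three_dvd h12 hfix hG a
    have h7 := (orbit_le h12 (G := G) a).1
    exact orbit_ne_three h12 hfix he hG a (by omega)
  have h4 : insert a ((fixedPoints Q Ω)ᶜ) ⊆ orbit G a := by
    rw [orbit_eq_iff.2 hax]
    exact Set.insert_subset hax hsub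
  have h5 := Set.ncard_le_ncard h4 (Set.toFinite _)
  rw [Set.ncard_insert_of_notMem (show a ∉ (fixedPoints Q Ω)ᶜ from fun h => h haQ) (Set.toFinite _), hc] at h5
  have h6 := three_dvd h12 hfix hG a
  have h7 := (orbit_le h12 (G := G) a).2
  have h8 : orbit G a = Set.univ := by
    apply Set.eq_of_subset_of_ncard_le (Set.subset_univ _) _ (Set.toFinite _)
    rw [Set.ncard_univ, h12]
    omega
  intro b c
  have hb : b ∈ orbit G a := by rw [h8]; trivial
  have hcc : c ∈ orbit G a := by rw [h8]; trivial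
  obtain ⟨g, rfl⟩ := hb
  obtain ⟨k, rfl⟩ := hcc
  refine ⟨k * g⁻¹, ?_⟩
  show (k * g⁻¹) • g • a = k • a
  rw [mul_smul, inv_smul_smul]

omit h12 hfix he hG in
omit [Finite G] [Finite Ω] in
/-- the small orbits of the stabiliser -/
def D (G : Type*) {Ω : Type*} [Group G] [MulAction G Ω] (a : Ω) : Set Ω := {b | (orbit (stabilizer G a) b).ncard < 9}

theorem D_eq {a : Ω} {Q : Subgroup G} (hQ : Q ≤ stabilizer G a) (hQ9 : Nat.card Q = 9) : D G a = fixedPoints Q Ω := by
  have haQ : a ∈ fixedPoints Q Ω := fun g => hQ g.2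
  have hQne : Q ≠ ⊥ := by
    rintro rfl
    rw [Subgroup.card_bot] at hQ9
    omega
  obtain ⟨h3, -, -⟩ := three h12 hfix (IsPGroup.of_card (n := 2) hQ9) haQ hQne
  have hc : ((fixedPoints Q Ω)ᶜ).ncard = 9 := by rw [Set.ncard_compl, h12, h3]
  obtain ⟨x, hx⟩ : ((fixedPoints Q Ω)ᶜ).Nonempty := by
    rw [← Set.ncard_pos (Set.toFinite _), hc]; norm_num
  have hsub : (fixedPoints Q Ω)ᶜ ⊆ orbit (stabilizer G a) x := by
    intro y hy
    obtain ⟨g, hgQ, hg⟩ := regular h12 hfix hQ9 haQ hx hy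
    exact ⟨⟨g, hQ hgQ⟩, hg⟩
  have hax : a ∉ orbit (stabilizer G a) x := by
    rintro ⟨h, hh⟩
    have h1 : (h : G) • a = a := h.2
    have h2 : (h : G) • x = a := hh
    have h4 : x = a := smul_left_cancel (h : G) (h2.trans h1.symm)
    exact hx (by rw [h4]; exact haQ)
  -- the size of the orbit
  have hcard : (orbit (stabilizer G a) x).ncard ∣ Nat.card (stabilizer G a) := by
    rw [← card_eq (G := stabilizer G a) x]
    exact dvd_mul_right _ _
  have h1 := card_eq (G := G) a
  have h2 : (orbit G a).ncard = 12 := by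
    rw [← h12, ← Set.ncard_univ]
    congr 1
    rw [Set.eq_univ_iff_forall]
    intro b
    exact transitive h12 hfix he hG a b
  rw [h2, hG] at h1
  have h4 := Set.ncard_le_ncard hsub (Set.toFinite _)
  have h5 : (orbit (stabilizer G a) x).ncard ≤ 11 := by
    have h6 : orbit (stabilizer G a) x ⊆ {a}ᶜ := fun y hy h => hax (by
      have h7 : y = a := h
      rw [h7] at hy
      exact hy)
    have h7 := Set.ncard_le_ncard h6 (Set.toFinite _)
    rw [Set.ncard_compl, h12, Set.ncard_singleton] at h7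
    exact h7
  have h6 : (orbit (stabilizer G a) x).ncard = 9 := by
    have h7 : (orbit (stabilizer G a) x).ncard ∣ 2 ^ e * 27 := by
      rw [← h1]
      exact hcard.trans (dvd_mul_left _ _)
    rw [hc] at h4
    generalize (orbit (stabilizer G a) x).ncard = m at *
    have h8 : m = 9 ∨ m = 10 ∨ m = 11 := by omega
    rcases h8 with rfl | rfl | rfl
    · rfl
    · exfalso
      have h9 : 5 ∣ 2 ^ e * 27 := (show 5 ∣ 10 by norm_num).trans h7
      rcases (Nat.Prime.dvd_mul Nat.prime_five).1 h9 with h | h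
      · have := (Nat.prime_dvd_prime_iff_eq Nat.prime_five Nat.prime_two).1 (Nat.Prime.dvd_of_dvd_pow Nat.prime_five h)
        omega
      · omega
    · exfalso
      have h11 : Nat.Prime 11 := by norm_num
      rcases (Nat.Prime.dvd_mul h11).1 h7 with h | h
      · have := (Nat.prime_dvd_prime_iff_eq h11 Nat.prime_two).1 (Nat.Prime.dvd_of_dvd_pow h11 h)
        omega
      · omega
  have hO : (fixedPoints Q Ω)ᶜ = orbit (stabilizer G a) x :=
    Set.eq_of_subset_of_ncard_le hsub (by omega) (Set.toFinite _)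
  ext b
  constructor
  · intro hb
    by_contra hbQ
    have h7 : b ∈ orbit (stabilizer G a) x := hsub hbQ
    have h8 : (orbit (stabilizer G a) b).ncard < 9 := hb
    rw [orbit_eq_iff.2 h7, h6] at h8
    omega
  · intro hb
    have h7 : orbit (stabilizer G a) b ⊆ fixedPoints Q Ω := by
      intro y hy
      by_contra h8
      have h9 : y ∈ orbit (stabilizer G a) x := hsub h8
      have h10 : b ∈ orbit (stabilizer G a) x := by
        rw [← orbit_eq_iff.2 h9, orbit_eq_iff.2 hy]
        exact mem_orbit_self b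
      rw [← hO] at h10
      exact h10 hb
    have h8 := Set.ncard_le_ncard h7 (Set.toFinite _)
    show (orbit (stabilizer G a) b).ncard < 9
    omega

theorem exists_Q (a : Ω) : ∃ Q ≤ stabilizer G a, Nat.card Q = 9 ∧ D G a = fixedPoints Q Ω ∧ (D G a).ncard = 3 ∧ a ∈ D G a := by
  have h2 : (orbit G a).ncard = 12 := by
    rw [← h12, ← Set.ncard_univ]
    congr 1
    rw [Set.eq_univ_iff_forall]
    intro b
    exact transitive h12 hfix he hG a b
  obtain ⟨Q, hQ, hQ9⟩ := exists_nine h12 hfix hG (a := a) (by omega)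
  have haQ : a ∈ fixedPoints Q Ω := fun g => hQ g.2
  have hQne : Q ≠ ⊥ := by
    rintro rfl
    rw [Subgroup.card_bot] at hQ9
    omega
  have h1 := D_eq h12 hfix he hG hQ hQ9
  refine ⟨Q, hQ, hQ9, h1, ?_, ?_⟩
  · rw [h1]; exact (three h12 hfix (IsPGroup.of_card (n := 2) hQ9) haQ hQne).1
  · rw [h1]; exact haQ

theorem D_of_mem {a b : Ω} (hb : b ∈ D G a) : D G b = D G a := by
  obtain ⟨Q, hQ, hQ9, h1, -, -⟩ := exists_Q h12 hfix he hG a
  rw [h1] at hb ⊢
  exact D_eq h12 hfix he hG (fun g hg => hb ⟨g, hg⟩) hQ9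

theorem smul_mem_D {a b : Ω} (g : G) (hb : b ∈ D G a) : g • b ∈ D G (g • a) := by
  obtain ⟨Q, hQ, hQ9, h1, -, -⟩ := exists_Q h12 hfix he hG a
  rw [h1] at hb
  have h2 : Q.map (MulAut.conj g).toMonoidHom ≤ stabilizer G (g • a) := by
    rintro _ ⟨k, hk, rfl⟩
    show (g * k * g⁻¹) • g • a = g • a
    have h3 : k • a = a := hQ hk
    rw [mul_smul, inv_smul_smul, mul_smul, h3]
  have h3 : Nat.card (Q.map (MulAut.conj g).toMonoidHom) = 9 := by
    rw [← hQ9]
    exact Nat.card_congr (Q.equivMapOfInjective _ (MulAut.conj g).injective).toEquiv.symm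
  rw [D_eq h12 hfix he hG h2 h3]
  rintro ⟨_, k, hk, rfl⟩
  show (g * k * g⁻¹) • g • b = g • b
  have h4 : k • b = b := hb ⟨k, hk⟩
  rw [mul_smul, inv_smul_smul, mul_smul, h4]

/-- **the group does not exist** -/
theorem no_group : False := by
  classical
  have : Fact (Nat.Prime 2) := ⟨Nat.prime_two⟩
  have hne : Nonempty Ω := by
    by_contra h
    rw [not_nonempty_iff] at h
    rw [Nat.card_of_isEmpty] at h12
    omega
  obtain ⟨a⟩ := hne
  have hD3 : ∀ x : Ω, (D G x).ncard = 3 := fun x => (exists_Q h12 hfix he hG x).choose_spec.2.2.2.1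
  have hDm : ∀ x : Ω, x ∈ D G x := fun x => (exists_Q h12 hfix he hG x).choose_spec.2.2.2.2
  have hDe : ∀ {x y : Ω}, y ∈ D G x → D G y = D G x := fun h => D_of_mem h12 hfix he hG h
  have hDs : ∀ (g : G) {x y : Ω}, D G x = D G y → D G (g • x) = D G (g • y) := by
    intro g x y h
    apply hDe
    apply smul_mem_D h12 hfix he hG
    rw [← h]
    exact hDm x
  let st : Setoid Ω := ⟨fun x y => D G x = D G y, fun _ => rfl, fun h => h.symm, fun h h' => h.trans h'⟩
  let X := Quotient st
  let _ : MulAction G X :=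
    { smul := fun g => Quotient.map (fun x => g • x) (fun x y h => hDs g h)
      one_smul := by
        rintro ⟨x⟩
        exact congrArg (Quotient.mk st) (one_smul G x)
      mul_smul := by
        rintro g h ⟨x⟩
        exact congrArg (Quotient.mk st) (mul_smul g h x) }
  have hfinX : Finite X := Quotient.finite st
  -- four classes
  have hX : Nat.card X = 4 := by
    let _ : Fintype Ω := Fintype.ofFinite Ω
    let _ : Fintype X := Fintype.ofFinite X
    have h1 : Fintype.card Ω = ∑ c : X, Fintype.card {x : Ω // (Quotient.mk st x : X) = c} := by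
      rw [← Fintype.card_sigma]
      exact Fintype.card_congr (Equiv.sigmaFiberEquiv (Quotient.mk st)).symm
    have h2 : ∀ c : X, Fintype.card {x : Ω // (Quotient.mk st x : X) = c} = 3 := by
      intro c
      induction c using Quotient.inductionOn with
      | h y =>
        rw [← hD3 y, ← Nat.card_coe_set_eq, ← Nat.card_eq_fintype_card]
        refine Nat.card_congr (Equiv.subtypeEquivRight fun x => ?_)
        constructor
        · intro h
          have h3 : D G x = D G y := Quotient.exact h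
          rw [← h3]
          exact hDm x
        · intro h
          exact Quotient.sound (hDe h)
    simp only [h2, Finset.sum_const, Finset.card_univ, smul_eq_mul] at h1
    rw [Nat.card_eq_fintype_card] at h12 ⊢
    omega
  let φ := MulAction.toPermHom G X
  have h1 : Nat.card φ.range ∣ 24 := by
    have h2 : Nat.card (Equiv.Perm X) = 24 := by rw [Nat.card_perm, hX]; rfl
    rw [← h2]
    exact Subgroup.card_subgroup_dvd_card _
  have h2 : Nat.card G = Nat.card φ.range * Nat.card φ.ker := by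
    rw [Subgroup.card_eq_card_quotient_mul_card_subgroup φ.ker]
    congr 1
    exact Nat.card_congr (QuotientGroup.quotientKerEquivRange φ).toEquiv
  have h3 : 2 ^ 2 ∣ Nat.card φ.ker := by
    obtain ⟨t, ht⟩ := h1
    rw [hG] at h2
    have h4 : 8 * Nat.card φ.ker = 32 * (2 ^ (e - 5) * 9 * t) := by
      have h5 : 2 ^ e = 32 * 2 ^ (e - 5) := by
        rw [show (32 : ℕ) = 2 ^ 5 by norm_num, ← pow_add]
        congr 1
        omega
      have h6 : 3 * (8 * Nat.card φ.ker) = 3 * (32 * (2 ^ (e - 5) * 9 * t)) := by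
        calc 3 * (8 * Nat.card φ.ker) = 24 * Nat.card φ.ker := by ring
          _ = Nat.card φ.range * t * Nat.card φ.ker := by rw [ht]
          _ = (Nat.card φ.range * Nat.card φ.ker) * t := by ring
          _ = (2 ^ e * 27) * t := by rw [h2]
          _ = _ := by rw [h5]; ring
      omega
    omega
  obtain ⟨R, hR, hR4⟩ := exists_le (p := 2) (n := 2) φ.ker h3
  have hRp : IsPGroup 2 R := IsPGroup.of_card hR4
  have hRD : ∀ (b : Ω), ∀ g ∈ R, ∀ x ∈ D G b, g • x ∈ D G b := by
    intro b g hg x hx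
    have h4 : φ g = 1 := hR hg
    have h5 : (Quotient.mk st (g • x) : X) = Quotient.mk st x :=
      congrArg (fun f : Equiv.Perm X => f (Quotient.mk st x)) h4
    have h6 : D G (g • x) = D G x := Quotient.exact h5
    rw [← hDe hx, ← h6]
    exact hDm _
  obtain ⟨R1, hR1, hR2, hfixR⟩ := two_on_three hRp (hRD a) (hD3 a)
  have hR1p : IsPGroup 2 R1 := hRp.to_le hR1
  have hR1ne : R1 ≠ ⊥ := by
    rintro rfl
    rw [hR4, Subgroup.card_bot] at hR2
    omega
  have hex : ∀ b : Ω, ∃ x ∈ D G b, x ∈ fixedPoints R1 Ω := by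
    intro b
    have h4 := card_modEq hR1p (D G b) (fun g hg => hRD b g (hR1 hg))
    rw [hD3 b] at h4
    have h5 : 0 < (D G b ∩ fixedPoints R1 Ω).ncard := by
      unfold Nat.ModEq at h4
      omega
    obtain ⟨x, hx⟩ := (Set.ncard_pos (Set.toFinite _)).1 h5
    exact ⟨x, hx.1, hx.2⟩
  obtain ⟨b, hb⟩ : ∃ b, b ∉ D G a := by
    by_contra hcon
    push Not at hcon
    have h4 : D G a = Set.univ := Set.eq_univ_iff_forall.2 hcon
    have h5 := hD3 a
    rw [h4, Set.ncard_univ, h12] at h5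
    omega
  obtain ⟨c, hc⟩ : ∃ c, c ∉ D G a ∪ D G b := by
    by_contra hcon
    push Not at hcon
    have h4 : D G a ∪ D G b = Set.univ := Set.eq_univ_iff_forall.2 hcon
    have h5 := Set.ncard_union_le (D G a) (D G b)
    rw [h4, Set.ncard_univ, h12, hD3, hD3] at h5
    omega
  obtain ⟨x, hxb, hxf⟩ := hex b
  obtain ⟨y, hyc, hyf⟩ := hex c
  have hxa : x ∉ D G a := by
    intro h
    apply hb
    rw [← hDe h, hDe hxb]
    exact hDm b
  have hya : y ∉ D G a := by
    intro h
    apply hc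
    left
    rw [← hDe h, hDe hyc]
    exact hDm c
  have hyx : y ≠ x := by
    rintro rfl
    apply hc
    right
    rw [← hDe hxb, hDe hyc]
    exact hDm c
  have h4 : insert y (insert x (D G a)) ⊆ fixedPoints R1 Ω :=
    Set.insert_subset hyf (Set.insert_subset hxf hfixR)
  have h5 := Set.ncard_le_ncard h4 (Set.toFinite _)
  rw [Set.ncard_insert_of_notMem (by
    rw [Set.mem_insert_iff]
    rintro (h | h)
    · exact hyx h
    · exact hya h) (Set.toFinite _), Set.ncard_insert_of_notMem hxa (Set.toFinite _), hD3] at h5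
  have h6 := fix_le h12 hfix hR1ne
  omega

end

section m12

open Cfsg

universe u

theorem no_sub {S : Type u} [Group S] (f : S ≃* Spor.M12) {H : Subgroup S} {n : ℕ} (hn : 5 ≤ n)
    (hH : Nat.card H = 2 ^ n * 27) : False := by
  classical
  have hfin : Finite H := Nat.finite_of_card_ne_zero (by rw [hH]; positivity)
  let Ω := {x : GolayPt // x ∈ Spor.squareDodecad}
  let _ : MulAction H Ω :=
    { smul := fun g x => ⟨(f g : Equiv.Perm GolayPt) x.1, Cfsg.Agent.CpAutTThree.MTwelve.map_mem (f g).2 x.2⟩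
      one_smul := fun x => Subtype.ext (by
        show (f ((1 : H) : S) : Equiv.Perm GolayPt) x.1 = x.1
        rw [Subgroup.coe_one, map_one]; rfl)
      mul_smul := fun g h x => Subtype.ext (by
        show (f ((g * h : H) : S) : Equiv.Perm GolayPt) x.1 = (f g : Equiv.Perm GolayPt) ((f h : Equiv.Perm GolayPt) x.1)
        rw [Subgroup.coe_mul, map_mul]; rfl) }
  refine no_group (G := H) (Ω := Ω) ?_ ?_ hn hH
  · rw [Nat.card_eq_fintype_card, Fintype.card_coe]
    exact Cfsg.Agent.CpAutTThree.MTwelve.card_dodecad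
  · intro g hg
    have h1 : ((f g : Spor.M12) : Equiv.Perm GolayPt) ≠ 1 := by
      intro h
      apply hg
      have h2 : f g = 1 := Subtype.ext h
      have h3 := f.injective (h2.trans (map_one f).symm)
      exact Subtype.ext h3
    have h2 := Cfsg.Agent.CpAutTThree.MTwelve.fix_le (f g).2 h1
    refine le_trans ?_ h2
    rw [← Set.ncard_coe_finset]
    have h3 : Subtype.val '' (fixedBy Ω g) ⊆
        (↑(Cfsg.Agent.CpAutTThree.MTwelve.Fix (f g : Equiv.Perm GolayPt)) : Set GolayPt) := by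
      rintro _ ⟨x, hx, rfl⟩
      rw [Finset.mem_coe, Cfsg.Agent.CpAutTThree.MTwelve.mem_Fix]
      exact ⟨x.2, congrArg Subtype.val hx⟩
    have h4 := Set.ncard_le_ncard h3 (Set.toFinite _)
    rw [Set.ncard_image_of_injective _ Subtype.val_injective] at h4
    exact h4

/-- **`M12` has no subgroup of index 55 or 110** -/
theorem no_index_m12 {S : Type u} [Group S] [Finite S] (h : Cfsg.Spor.IsoM12 S) (H : Subgroup S) :
    H.index ≠ 55 ∧ H.index ≠ 110 := by
  obtain ⟨f⟩ := h
  have hc : Nat.card S = 95040 := (Nat.card_congr f.toEquiv).trans Cfsg.Agent.CpAutTThree.MTwelve.card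
  have h1 := Subgroup.card_mul_index H
  rw [hc] at h1
  constructor
  · intro h2
    rw [h2] at h1
    exact no_sub f (H := H) (n := 6) (by norm_num) (by omega)
  · intro h2
    rw [h2] at h1
    exact no_sub f (H := H) (n := 5) (by norm_num) (by omega)

end m12

end Cfsg.Agent.H434.FP
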